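import Cfsg.Agent.E7P.E27.TY

/-!
# S5932, task E27: the classes of the torus of order 26 (helper97)
-/

set_option autoImplicit false
set_option maxRecDepth 100000
set_option Elab.async false

namespace Cfsg.Agent.E7P.E27

open Cfsg.Agent.R2.T1 Cfsg.Agent.H944.Tab Cfsg.Agent.H944.E7Two

/-- the check of a class -/
noncomputable def pX (s : List ℕ) : Bool := frc (UU 26 T26 s) fun u => (TT u).alle u fun v =>
  cond (Nat.beq (Nat.land (Nat.sub u v) MASK) 0) (good s (Nat.sub u v)) true

theorem cX_0 : cP 13 19 pX 0 = true := by decide +kernel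

theorem cX_1 : cP 13 19 pX 1 = true := by decide +kernel

theorem cX_2 : cP 13 19 pX 2 = true := by decide +kernel

theorem cX_3 : cP 13 19 pX 3 = true := by decide +kernel

theorem cX_4 : cP 13 19 pX 4 = true := by decide +kernel

theorem cX_5 : cP 13 19 pX 5 = true := by decide +kernel

theorem cX_6 : cP 13 19 pX 6 = true := by decide +kernel

theorem cX_7 : cP 13 19 pX 7 = true := by decide +kernel

theorem cX_8 : cP 13 19 pX 8 = true := by decide +kernel

theorem cX_9 : cP 13 19 pX 9 = true := by decide +kernel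

theorem cX_10 : cP 13 19 pX 10 = true := by decide +kernel

theorem cX_11 : cP 13 19 pX 11 = true := by decide +kernel

theorem cX_12 : cP 13 19 pX 12 = true := by decide +kernel

theorem cX_13 : cP 13 19 pX 13 = true := by decide +kernel

theorem cX_14 : cP 13 19 pX 14 = true := by decide +kernel

theorem cX_15 : cP 13 19 pX 15 = true := by decide +kernel

theorem cX_16 : cP 13 19 pX 16 = true := by decide +kernel

theorem cX_17 : cP 13 19 pX 17 = true := by decide +kernel

theorem cX_18 : cP 13 19 pX 18 = true := by decide +kernel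

theorem cX_all : ∀ i < 19, cP 13 19 pX i = true
  | 0, _ => cX_0
  | 1, _ => cX_1
  | 2, _ => cX_2
  | 3, _ => cX_3
  | 4, _ => cX_4
  | 5, _ => cX_5
  | 6, _ => cX_6
  | 7, _ => cX_7
  | 8, _ => cX_8
  | 9, _ => cX_9
  | 10, _ => cX_10
  | 11, _ => cX_11
  | 12, _ => cX_12
  | 13, _ => cX_13
  | 14, _ => cX_14
  | 15, _ => cX_15
  | 16, _ => cX_16
  | 17, _ => cX_17
  | 18, _ => cX_18
  | _ + 19, h => absurd h (by omega)

theorem chkX {s : List ℕ} (h1 : s.length = 7) (h2 : dotN th7 s ≤ 13) : pX s = true := of_cP (by decide) cX_all h1 h2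

end Cfsg.Agent.E7P.E27
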