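import Cfsg.Agent.E7P.E27.TY

/-!
# S5932, task E27: the classes of the torus of order 28 (helper97)
-/

set_option autoImplicit false
set_option maxRecDepth 100000
set_option Elab.async false

namespace Cfsg.Agent.E7P.E27

open Cfsg.Agent.R2.T1 Cfsg.Agent.H944.Tab Cfsg.Agent.H944.E7Two

/-- the check of a class -/
noncomputable def pY (s : List ℕ) : Bool := frc (UU 28 T28 s) fun v => (TT v).mem v

theorem cY_0 : cP 14 11 pY 0 = true := by decide +kernel

theorem cY_1 : cP 14 11 pY 1 = true := by decide +kernel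

theorem cY_2 : cP 14 11 pY 2 = true := by decide +kernel

theorem cY_3 : cP 14 11 pY 3 = true := by decide +kernel

theorem cY_4 : cP 14 11 pY 4 = true := by decide +kernel

theorem cY_5 : cP 14 11 pY 5 = true := by decide +kernel

theorem cY_6 : cP 14 11 pY 6 = true := by decide +kernel

theorem cY_7 : cP 14 11 pY 7 = true := by decide +kernel

theorem cY_8 : cP 14 11 pY 8 = true := by decide +kernel

theorem cY_9 : cP 14 11 pY 9 = true := by decide +kernel

theorem cY_10 : cP 14 11 pY 10 = true := by decide +kernel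

theorem cY_all : ∀ i < 11, cP 14 11 pY i = true
  | 0, _ => cY_0
  | 1, _ => cY_1
  | 2, _ => cY_2
  | 3, _ => cY_3
  | 4, _ => cY_4
  | 5, _ => cY_5
  | 6, _ => cY_6
  | 7, _ => cY_7
  | 8, _ => cY_8
  | 9, _ => cY_9
  | 10, _ => cY_10
  | _ + 11, h => absurd h (by omega)

theorem chkY {s : List ℕ} (h1 : s.length = 7) (h2 : dotN th7 s ≤ 14) : pY s = true := of_cP (by decide) cY_all h1 h2

end Cfsg.Agent.E7P.E27
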