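import Cfsg.Agent.E7P.Nt.All
import Cfsg.Agent.R2.H28.SL2.Both
import Cfsg.Agent.R2.H28.SL2.Bas

/-!
# S5932, tasks E27 and E81: the common part (helper97)

* `E27.wx N b m` : the exponent of the weight `m` of `V_b`; `E27.mf_eq`, `E27.count_eig`, `Sit.e27_count` : the
  multiplicities of eigenvalues as numbers;
* `Sit.Rot j` : the rotation `j` of the labels is induced by the algebraic group; `Sit.rot_mult`, `Sit.rot_count`;
* `Sit.eVT`, `Sit.eWT` : the sum of the eigenspaces with exponents in `Θ`, the largest submodule in it; `Sit.eWT_stb`;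
* `Sit.e27_torw`, `Sit.e27_torw'` : `TorW` from a cocharacter which is constant on the eigenspaces.
-/

set_option autoImplicit false
set_option maxRecDepth 100000
set_option linter.unusedSectionVars false

namespace Cfsg.Agent.E7P

open Cfsg Cfsg.Lie Matrix Module
open Cfsg.Agent.H943.E7V.Block (D1 rho)
open Cfsg.Agent.R2.T1 Cfsg.Agent.E7P.Kf
open Cfsg.Agent.H943.SL2Rel Cfsg.Agent.H943.SL2Mod Cfsg.Agent.H943.RepAdd
open Cfsg.Agent.R2.H28.SL2
open Cfsg.Agent.H179.SLC (IsSS isSS_h)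
open Cfsg.Agent.H952.F4 (ev)
open Cfsg.Agent.H944.E6T (ev_diag ev_conj)

universe u v

namespace E27

/-- the exponent of the weight `m` of `V_b` -/
def wx (N b m : ℕ) : ℕ := (2 * m + N - b) % N

section
variable {k : Type*} [Field k]

theorem pow_wx {ζ : k} {N b m : ℕ} (hζ : ζ ^ N = 1) (hN : 0 < N) (hm : m ≤ b) (hb : b ≤ N) :
    ζ ^ m * ζ⁻¹ ^ (b - m) = ζ ^ wx N b m := by
  have h0 : ζ ≠ 0 := by
    rintro rfl
    rw [zero_pow hN.ne'] at hζ
    exact zero_ne_one hζ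
  rw [wx, ← pow_eq_pow_mod _ hζ, inv_pow, mul_inv_eq_iff_eq_mul₀ (pow_ne_zero _ h0), ← pow_add,
    show 2 * m + N - b + (b - m) = m + N by omega, pow_add, hζ, mul_one]

theorem pow_inj {ζ : k} {N : ℕ} (hζ : IsPrimitiveRoot ζ N) (hN : 0 < N) {i θ : ℕ} (hθ : θ < N) :
    ζ ^ i = ζ ^ θ ↔ i % N = θ := by
  rw [pow_eq_pow_mod _ hζ.pow_eq_one]
  exact ⟨fun h => hζ.pow_inj (Nat.mod_lt _ hN) hθ h, fun h => by rw [h]⟩

theorem le_of_Bf [DecidableEq k] {b m : ℕ} (hm : m ∈ Bf k b) : m ≤ b :=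
  Nat.lt_succ_iff.1 (Finset.mem_range.1 (Finset.mem_filter.1 hm).1)

theorem mf_eq' [DecidableEq k] {ζ : k} {N : ℕ} (hζ : IsPrimitiveRoot ζ N) (hN : 0 < N) {b θ : ℕ} (hb : b ≤ N)
    (hθ : θ < N) (r : ℕ) : mf b (ζ ^ r) (ζ ^ θ) = ((Bf k b).filter fun m => r * wx N b m % N = θ).card := by
  unfold mf
  congr 1
  refine Finset.filter_congr fun m hm => ?_
  rw [pow_wx (N := N) (by rw [← pow_mul, mul_comm, pow_mul, hζ.pow_eq_one, one_pow]) hN (le_of_Bf hm) hb, ← pow_mul,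
    pow_inj hζ hN hθ]

theorem mf_eq [DecidableEq k] {ζ : k} {N : ℕ} (hζ : IsPrimitiveRoot ζ N) (hN : 0 < N) {b θ : ℕ} (hb : b ≤ N)
    (hθ : θ < N) : mf b ζ (ζ ^ θ) = ((Bf k b).filter fun m => wx N b m = θ).card := by
  have h1 := mf_eq' hζ hN hb hθ 1
  rw [pow_one] at h1
  rw [h1]
  congr 1
  refine Finset.filter_congr fun m _ => ?_
  rw [one_mul, wx, Nat.mod_mod]

end

section
variable {K : Type u} [Field K] {I : Type*} [Fintype I] [DecidableEq I]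

/-- a matrix representation as a representation -/
noncomputable def rp (R : Gh K →* Matrix I I K) : Representation K (Gh K) (I → K) where
  toFun g := toLin' (R g)
  map_one' := by rw [map_one, toLin'_one]; rfl
  map_mul' x y := by rw [map_mul, toLin'_mul]; rfl

theorem finrank_eig_eq {G : Type*} [Group G] {R : Gh K →* Matrix I I K} {ρ : Representation K G (I → K)} {y : G}
    {x : Gh K} (h : ∀ v, ρ y v = R x *ᵥ v) (ν : K) : finrank K (eig ρ y ν) = ev (rp R x) ν := by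
  unfold ev
  have h1 : eig ρ y ν = Module.End.eigenspace (rp R x) ν := by
    ext v
    rw [mem_eig, Module.End.mem_eigenspace_iff, h]
    rfl
  rw [h1]

/-- the multiplicities of the eigenvalues of a toral element -/
theorem count_eig [DecidableEq K] {c : I → Fin 7 → ℤ} {R : Gh K →* Matrix I I K} (hR : WRep c R) {G : Type*} [Group G]
    {ρ : Representation K G (I → K)} {y : G} {g : Gh K} {t : Fin chevE7.rank → Kˣ}
    (h : ∀ v, ρ y v = R (g * Phi K t * g⁻¹) *ᵥ v) (ν : K) :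
    finrank K (eig ρ y ν) = (Finset.univ.filter fun i => ((ch (c i) t : Kˣ) : K) = ν).card := by
  rw [finrank_eig_eq h, ev_conj]
  exact ev_diag _ ν (congrArg toLin' (hR.tor t))

end

/-- the automorphisms of a finite field -/
theorem exists_frob {K : Type v} [Field K] [Finite K] {p : ℕ} (hp : p.Prime) [CharP K p] (τ : K ≃+* K) :
    ∃ j, ∀ x, τ x = x ^ p ^ j := by
  have : Fact p.Prime := ⟨hp⟩
  let _ : Algebra (ZMod p) K := ZMod.algebra K p
  obtain ⟨j, hj⟩ := FiniteField.exists_forall_apply_eq_pow (ZMod p) p K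
    (AlgEquiv.ofRingEquiv (f := τ) fun x => by
      have h1 : (τ : K →+* K).comp (algebraMap (ZMod p) K) = algebraMap (ZMod p) K := RingHom.ext_zmod _ _
      exact DFunLike.congr_fun h1 x)
  refine ⟨j, fun x => ?_⟩
  have h1 := hj x
  rwa [Nat.card_zmod] at h1

/-- the eigenvalues of the image under an automorphism -/
theorem isSS_aut {K : Type v} [Field K] {k : Type u} [Field k] (ι : K →+* k) (φ : k →+* k) (c : Kˣ) (τ : K ≃+* K)
    (hφ : ∀ x, ι (τ x) = φ (ι x)) {y : SpecialLinearGroup (Fin 2) K} {ξ : k} (h : IsSS ι y ξ) :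
    IsSS ι (aut c τ y) (φ ξ) := by
  obtain ⟨v, w, h1, h2, h3⟩ := h
  have hc : ι ((c⁻¹ : Kˣ) : K) * ι c = 1 := by rw [← map_mul, Units.inv_mul, map_one]
  have key : ∀ (x : Fin 2 → k) (z : k), (y.1.map ι) *ᵥ x = z • x →
      ((aut c τ y).1.map ι) *ᵥ ![ι c * φ (x 0), φ (x 1)] = φ z • ![ι c * φ (x 0), φ (x 1)] := by
    intro x z hx
    have e0 := congrArg φ (congrFun hx 0)
    have e1 := congrArg φ (congrFun hx 1)
    simp only [mulVec, dotProduct, Fin.sum_univ_two, map_apply, Pi.smul_apply, smul_eq_mul, map_add, map_mul] at e0 e1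
    rw [aut_eq c τ (y.1 0 0) (y.1 0 1) (y.1 1 0) (y.1 1 1) y (eta_fin_two _)]
    funext i
    fin_cases i
    · simp only [mulVec, dotProduct, Fin.sum_univ_two, map_apply, Pi.smul_apply, smul_eq_mul, of_apply, cons_val', cons_val_zero,
        cons_val_one, cons_val_fin_one, Fin.zero_eta, map_mul, hφ]
      linear_combination ι c * e0
    · simp only [mulVec, dotProduct, Fin.sum_univ_two, map_apply, Pi.smul_apply, smul_eq_mul, of_apply, cons_val', cons_val_zero,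
        cons_val_one, cons_val_fin_one, Fin.mk_one, map_mul, hφ]
      linear_combination e1 + φ (ι (y.1 1 0)) * φ (x 0) * hc
  refine ⟨_, _, key v ξ h1, by rw [← map_inv₀]; exact key w _ h2, ?_⟩
  simp only [cons_val_zero, cons_val_one]
  have h4 : ι c * φ (v 0) * φ (w 1) - φ (v 1) * (ι c * φ (w 0)) = ι c * φ (v 0 * w 1 - v 1 * w 0) := by
    rw [map_sub, map_mul, map_mul]; ring
  rw [h4]
  exact mul_ne_zero ((map_ne_zero ι).2 c.ne_zero) ((map_ne_zero φ).2 h3)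

end E27

namespace Sit

open E27

variable {p a b : ℕ} {F : Type u} {K : Type v} {k : Type u} [Field F] [Fintype F] [Field K] [Fintype K] [Field k]
  (S : Sit p a b F K k)

/-- the rotation `j` is induced by the algebraic group -/
def Rot (j : ℕ) : Prop := ∀ (y : SpecialLinearGroup (Fin 2) K) (ξ : k) (N : ℕ), IsSS S.ι y ξ → ξ ^ N = 1 → (N : k) ≠ 0 →
  ∃ y' g, IsSS S.ι y' (ξ ^ p ^ j) ∧ S.ψ y' = g * S.ψ y * g⁻¹

theorem e27_s (t : k) : S.s t = t ^ p ^ b := by rw [S.frob, Nat.card_eq_fintype_card, S.cardF]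

theorem rot_σ : S.Rot b := by
  classical
  intro y ξ N h1 h2 h3
  have := S.closed
  have := S.chark
  have h4 : S.ψ y ^ N = 1 := by rw [← map_pow, pow_eq_one_of_isSS S.ι h1 h2, map_one]
  obtain ⟨g, t, ht⟩ := exists_conj_T S.prime S.alg h3 h4
  have h5 : S.σ (Phi k t) = Phi k t ^ p ^ b := by
    rw [← map_pow]
    refine (emb_Phi S.s t).trans (congrArg _ (funext fun i => Units.ext ?_))
    exact S.e27_s _
  have h6 := S.k_σ_ψ y
  rw [ht, map_mul, map_mul, map_inv, h5] at h6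
  refine ⟨y ^ p ^ b, g * (S.σ g)⁻¹, h1.pow _ _, ?_⟩
  rw [map_pow, ht, conj_pow, ← h6]
  group

variable {S} in
theorem NB.rot {n : Gh k} (hn : S.NB n) : ∃ j, S.Rot j ∧ ∀ c, n * S.ψ (h c) * n⁻¹ = S.ψ (h c) ^ p ^ j := by
  obtain ⟨-, c, τ, hτ⟩ := hn
  have := S.charK
  have := S.chark
  have : Fact p.Prime := ⟨S.prime⟩
  obtain ⟨j, hj⟩ := exists_frob S.prime τ
  refine ⟨j, fun y ξ _ h1 _ _ => ⟨aut c τ y, n, ?_, hτ y⟩, fun d => ?_⟩
  · exact isSS_aut S.ι (iterateFrobenius k p j) c τ (fun x => by rw [hj, map_pow]; rfl) h1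
  · rw [← hτ, aut_h, ← map_pow, ← h_pow]
    exact congrArg (fun x => S.ψ (h x)) (Units.ext (hj d))

section
variable [DecidableEq k] [DecidableEq K] [Fact p.Prime] [CharP k p] [CharP K p]
  {I : Type} [Fintype I] [DecidableEq I] {c : I → Fin 7 → ℤ} {R : Gh k →* Matrix I I k}
  {ρ : Representation k (SpecialLinearGroup (Fin 2) K) (I → k)} {n : ℕ → ℕ}

/-- **the multiplicities as numbers** -/
theorem e27_count (hR : WRep c R) (hρ : ∀ x v, ρ x v = R (S.ψ x) *ᵥ v) (H : IsMult S.ι p a ρ n)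
    {y : SpecialLinearGroup (Fin 2) K} {ζ : k} {N : ℕ} (hy : IsSS S.ι y ζ) (hζ : IsPrimitiveRoot ζ N) (hN : (N : k) ≠ 0)
    (hq : p ^ a ≤ N + 1) {g : Gh k} {t : Fin chevE7.rank → kˣ} (ht : S.ψ y = g * Phi k t * g⁻¹) {e : I → ℕ}
    (he : ∀ i, ((ch (c i) t : kˣ) : k) = ζ ^ e i) {θ : ℕ} (hθ : θ < N) :
    (Finset.univ.filter fun i => e i % N = θ).card =
      ∑ d ∈ Finset.range (p ^ a), n d * ((Bf k d).filter fun m => wx N d m = θ).card := by
  have h1 := H.eigen y ζ N hy hζ.pow_eq_one hN (ζ ^ θ) (by rw [← pow_mul, mul_comm, pow_mul, hζ.pow_eq_one, one_pow])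
  rw [count_eig hR (g := g) (t := t) (fun v => by rw [hρ, ht])] at h1
  rw [← Finset.sum_congr rfl fun d hd => congrArg (n d * ·)
    (mf_eq hζ (by omega) (by have := Finset.mem_range.1 hd; omega) hθ), ← h1]
  congr 1
  exact Finset.filter_congr fun i _ => by rw [he, pow_inj hζ (by omega) hθ]

variable {S} in
/-- the rotations preserve the characters -/
theorem Rot.mult {j : ℕ} (hj : S.Rot j) (hρ : ∀ x v, ρ x v = R (S.ψ x) *ᵥ v) (H : IsMult S.ι p a ρ n)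
    {y : SpecialLinearGroup (Fin 2) K} {ζ : k} {N : ℕ} (hy : IsSS S.ι y ζ) (hζ : IsPrimitiveRoot ζ N) (hN : (N : k) ≠ 0)
    (hq : p ^ a ≤ N + 1) {θ : ℕ} (hθ : θ < N) :
    ∑ d ∈ Finset.range (p ^ a), n d * ((Bf k d).filter fun m => p ^ j * wx N d m % N = θ).card =
      ∑ d ∈ Finset.range (p ^ a), n d * ((Bf k d).filter fun m => wx N d m = θ).card := by
  have h0 : ∀ i, (ζ ^ i) ^ N = 1 := fun i => by rw [← pow_mul, mul_comm, pow_mul, hζ.pow_eq_one, one_pow]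
  obtain ⟨y', g, h1, h2⟩ := hj y ζ N hy hζ.pow_eq_one hN
  have h3 := H.eigen y ζ N hy hζ.pow_eq_one hN (ζ ^ θ) (h0 _)
  have h4 := H.eigen y' _ N h1 (h0 _) hN (ζ ^ θ) (h0 _)
  rw [finrank_eig_eq (hρ y)] at h3
  rw [finrank_eig_eq (hρ y'), h2, ev_conj, h3] at h4
  rw [← Finset.sum_congr rfl fun d hd => congrArg (n d * ·)
    (mf_eq hζ (by omega) (by have := Finset.mem_range.1 hd; omega) hθ), h4]
  exact Finset.sum_congr rfl fun d hd => congrArg (n d * ·)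
    (mf_eq' hζ (by omega) (by have := Finset.mem_range.1 hd; omega) hθ _).symm

variable {S} in
/-- the rotations preserve the multiplicities of the exponents -/
theorem Rot.count {j : ℕ} (hj : S.Rot j) (hR : WRep c R) (hρ : ∀ x v, ρ x v = R (S.ψ x) *ᵥ v)
    {y : SpecialLinearGroup (Fin 2) K} {ζ : k} {N : ℕ} (hy : IsSS S.ι y ζ) (hζ : IsPrimitiveRoot ζ N) (hN : (N : k) ≠ 0)
    {g : Gh k} {t : Fin chevE7.rank → kˣ} (ht : S.ψ y = g * Phi k t * g⁻¹) {e : I → ℕ}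
    (he : ∀ i, ((ch (c i) t : kˣ) : k) = ζ ^ e i) {θ : ℕ} (hθ : θ < N) :
    (Finset.univ.filter fun i => p ^ j * e i % N = θ).card = (Finset.univ.filter fun i => e i % N = θ).card := by
  have := S.closed
  obtain ⟨n, H⟩ := exists_isMult S.ι p S.cardK ρ
  have h0 : ∀ i, (ζ ^ i) ^ N = 1 := fun i => by rw [← pow_mul, mul_comm, pow_mul, hζ.pow_eq_one, one_pow]
  obtain ⟨y', g', h1, h2⟩ := hj y ζ N hy hζ.pow_eq_one hN
  have h3 := H.eigen _ _ N (hy.pow _ (p ^ j)) (h0 _) hN (ζ ^ θ) (h0 _)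
  have h4 := H.eigen y' _ N h1 (h0 _) hN (ζ ^ θ) (h0 _)
  rw [finrank_eig_eq (hρ y'), h2, ev_conj, ← finrank_eig_eq (hρ y), ← h3,
    count_eig hR (g := g) (t := t) (fun v => by rw [hρ, ht]),
    count_eig hR (g := g) (t := t ^ p ^ j) (fun v => by rw [hρ, map_pow, ht, conj_pow, map_pow])] at h4
  have h5 : ∀ i, ((ch (c i) (t ^ p ^ j) : kˣ) : k) = ζ ^ (p ^ j * e i) := fun i => by
    rw [mul_comm, pow_mul, ← he, ← Units.val_pow_eq_pow_val]
    unfold ch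
    rw [← Finset.prod_pow]
    exact congrArg _ (Finset.prod_congr rfl fun i _ => by rw [Pi.pow_apply, ← zpow_natCast, ← zpow_natCast, ← _root_.zpow_mul,
      ← _root_.zpow_mul, mul_comm])
  rw [← Finset.filter_congr fun i _ => (by rw [he, pow_inj hζ (by omega) hθ] :
      ((ch (c i) t : kˣ) : k) = ζ ^ θ ↔ e i % N = θ), h4]
  congr 1
  exact Finset.filter_congr fun i _ => by rw [h5, pow_inj hζ (by omega) hθ]

end

/-- the sum of the eigenspaces with exponents in `Θ` -/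
def eVT (c0 : Kˣ) (N : ℕ) (Θ : ℕ → Prop) : Submodule k (D1 → k) :=
  Submodule.span k {v | ∃ θ < N, Θ θ ∧ rho k (S.ψ (h c0)) *ᵥ v = S.ι c0 ^ θ • v}

/-- the largest submodule with exponents in `Θ` -/
def eWT (c0 : Kˣ) (N : ℕ) (Θ : ℕ → Prop) : Submodule k (D1 → k) where
  carrier := {v | ∀ x, rho k (S.ψ x) *ᵥ v ∈ S.eVT c0 N Θ}
  zero_mem' := fun _ => by rw [mulVec_zero]; exact zero_mem _
  add_mem' := fun hx hy x => by rw [mulVec_add]; exact add_mem (hx x) (hy x)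
  smul_mem' := fun t _ hx x => by rw [mulVec_smul]; exact Submodule.smul_mem _ t (hx x)

variable {c0 : Kˣ} {N : ℕ} {Θ : ℕ → Prop}

theorem eWT_le : S.eWT c0 N Θ ≤ S.eVT c0 N Θ := fun v hv => by
  have h1 := hv 1
  rwa [map_one, map_one, one_mulVec] at h1

theorem eWT_inv (x : SpecialLinearGroup (Fin 2) K) {v : D1 → k} (hv : v ∈ S.eWT c0 N Θ) :
    rho k (S.ψ x) *ᵥ v ∈ S.eWT c0 N Θ := fun y => by
  rw [← mulVec_mul, ← map_mul]
  exact hv _

theorem le_eWT {X : Submodule k (D1 → k)} (hX : ∀ x, ∀ v ∈ X, S.R x v ∈ X) (h : X ≤ S.eVT c0 N Θ) :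
    X ≤ S.eWT c0 N Θ := fun v hv x => h (hX x v hv)

theorem eWT_stb (hN : 0 < N) (hζ : S.ι c0 ^ N = 1) (hΘ : ∀ j, S.Rot j → ∀ θ < N, Θ θ → Θ (p ^ j * θ % N)) :
    S.Stb (rho k) (S.eWT c0 N Θ) := by
  constructor
  · intro m hm v hv x
    obtain ⟨n, x1, hn, rfl⟩ := S.exists_NB hm
    obtain ⟨j, hj, h1⟩ := hn.inv.rot
    obtain ⟨x2, h2⟩ := S.norm_ψ hn.inv.1 x
    have h3 : ∀ y ∈ S.eVT c0 N Θ, rho k n *ᵥ y ∈ S.eVT c0 N Θ := by
      intro y hy
      refine (Submodule.span_le (p := (S.eVT c0 N Θ).comap (toLin' (rho k n)))).2 ?_ hy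
      rintro y ⟨θ, h4, h5, h6⟩
      refine Submodule.subset_span ⟨_, Nat.mod_lt _ hN, hΘ j hj θ h4 h5, ?_⟩
      have h7 : ∀ i, rho k (S.ψ (h c0) ^ i) *ᵥ y = (S.ι c0 ^ θ) ^ i • y := by
        intro i
        induction i with
        | zero => rw [pow_zero, pow_zero, map_one, one_mulVec, one_smul]
        | succ i ih => rw [pow_succ, mulVec_mul, h6, mulVec_smul, ih, smul_smul, pow_succ']
      rw [toLin'_apply, ← pow_eq_pow_mod _ hζ, mul_comm, pow_mul, ← mulVec_smul, ← h7, ← h1, ← mulVec_mul, ← mulVec_mul]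
      congr 2
      group
    have h4 : S.ψ x * (n * S.ψ x1) = n * S.ψ (x2 * x1) := by rw [map_mul, ← h2]; group
    rw [← mulVec_mul, h4, mulVec_mul]
    exact h3 _ (hv _)
  · intro v hv x
    rw [← S.k_σ_ψ, ← S.sv_mulVec wrep_V]
    refine Submodule.span_induction (p := fun y _ => S.sv y ∈ S.eVT c0 N Θ) ?_ ?_ ?_ ?_ (hv x)
    · rintro y ⟨θ, h4, h5, h6⟩
      refine Submodule.subset_span ⟨_, Nat.mod_lt _ hN, hΘ b S.rot_σ θ h4 h5, ?_⟩
      rw [← S.k_σ_ψ, ← S.sv_mulVec wrep_V, h6, ← pow_eq_pow_mod _ hζ, mul_comm, pow_mul, ← S.e27_s]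
      exact funext fun i => map_mul S.s _ _
    · rw [S.nt_sv_zero]
      exact zero_mem _
    · intro y z _ _ hy hz
      rw [show S.sv (y + z) = S.sv y + S.sv z from funext fun i => map_add S.s _ _]
      exact add_mem hy hz
    · intro t y _ hy
      rw [show S.sv (t • y) = S.s t • S.sv y from funext fun i => map_mul S.s _ _]
      exact Submodule.smul_mem _ _ hy

/-- the coordinates of the vectors of `eVT` -/
theorem eVT_coord (hζ : IsPrimitiveRoot (S.ι c0) N) {g : Gh k} {t : Fin chevE7.rank → kˣ}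
    (ht : S.ψ (h c0) = g * Phi k t * g⁻¹) {e : D1 → ℕ} (he : ∀ μ, ((ch (wc μ) t : kˣ) : k) = S.ι c0 ^ e μ)
    {y : D1 → k} (hy : y ∈ S.eVT c0 N Θ) (μ : D1) (h0 : (rho k g⁻¹ *ᵥ y) μ ≠ 0) : Θ (e μ % N) := by
  revert h0
  refine Submodule.span_induction (p := fun y _ => (rho k g⁻¹ *ᵥ y) μ ≠ 0 → Θ (e μ % N)) ?_ ?_ ?_ ?_ hy
  · rintro y ⟨θ, h4, h5, h6⟩ h0
    have h1 := congrArg (fun x => (rho k g⁻¹ *ᵥ x) μ) h6
    simp only [ht, mulVec_mul, mulVec_inv, mulVec_smul] at h1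
    rw [wrep_V.tor, mulVec_diagonal, Pi.smul_apply, smul_eq_mul, he] at h1
    rw [(pow_inj hζ (by omega) h4).1 (mul_right_cancel₀ h0 h1)]
    exact h5
  · intro h0
    exact absurd (by rw [mulVec_zero]; rfl) h0
  · intro y z _ _ hy hz h0
    by_cases h1 : (rho k g⁻¹ *ᵥ y) μ = 0
    · exact hz fun h2 => h0 (by rw [mulVec_add, Pi.add_apply, h1, h2, add_zero])
    · exact hy h1
  · intro s y _ hy h0
    exact hy fun h2 => h0 (by rw [mulVec_smul, Pi.smul_apply, h2, smul_zero])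

/-- **`TorW` from a cocharacter** -/
theorem e27_torw (hp : p ≠ 2) (hs : S.SSC) (hN : 0 < N) (hζ : IsPrimitiveRoot (S.ι c0) N) {g : Gh k}
    {t : Fin chevE7.rank → kˣ} (ht : S.ψ (h c0) = g * Phi k t * g⁻¹) (hg : ∀ s, g * Phi k s * g⁻¹ ∈ S.P ⊓ S.P')
    {e : D1 → ℕ} (he : ∀ μ, ((ch (wc μ) t : kˣ) : k) = S.ι c0 ^ e μ)
    (hΘ : ∀ j, S.Rot j → ∀ θ < N, Θ θ → Θ (p ^ j * θ % N)) (h0 : S.eWT c0 N Θ ≠ ⊥) {l : Fin 7 → ℤ} (hl0 : l ≠ 0)
    (hl : ∀ μ ν, e μ % N = e ν % N → Θ (e μ % N) → ∑ i, wc μ i * l i = ∑ i, wc ν i * l i) :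
    Nonempty (S.TorW (rho k)) := by
  have hW := S.eWT_stb hN hζ.pow_eq_one hΘ
  refine ⟨⟨_, hW, S.expoV hp hs hW h0, g, l, hl0, fun z => hg _, fun θ => ?_⟩⟩
  have key : ∃ n : ℤ, ∀ μ : D1, S.ι c0 ^ e μ = θ c0 → Θ (e μ % N) → ∑ i, wc μ i * l i = n := by
    by_cases h1 : ∃ μ : D1, S.ι c0 ^ e μ = θ c0
    · obtain ⟨μ0, h1⟩ := h1
      refine ⟨_, fun μ hμ h2 => hl μ μ0 ?_ h2⟩
      rw [← pow_inj hζ hN (Nat.mod_lt _ hN), ← pow_eq_pow_mod _ hζ.pow_eq_one, hμ, h1]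
    · exact ⟨0, fun μ hμ => absurd ⟨μ, hμ⟩ h1⟩
  obtain ⟨n, hn⟩ := key
  refine ⟨n, fun y hyW hy z => ?_⟩
  have h1 := congrArg (fun x => rho k g⁻¹ *ᵥ x) (hy c0)
  simp only [ht, mulVec_mul, mulVec_inv, mulVec_smul] at h1
  have h2 : rho k (Phi k (lam l z)) *ᵥ (rho k g⁻¹ *ᵥ y) = ((z ^ n : kˣ) : k) • (rho k g⁻¹ *ᵥ y) := by
    funext μ
    have h3 := congrFun h1 μ
    rw [wrep_V.tor, mulVec_diagonal, Pi.smul_apply, smul_eq_mul, he] at h3
    rw [wrep_V.tor, mulVec_diagonal, Pi.smul_apply, smul_eq_mul, ch_lam]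
    by_cases h4 : (rho k g⁻¹ *ᵥ y) μ = 0
    · rw [h4, mul_zero, mul_zero]
    · rw [hn μ (mul_right_cancel₀ h4 h3) (S.eVT_coord hζ ht he (S.eWT_le hyW) μ h4)]
  rw [mulVec_mul, mulVec_mul, h2, mulVec_smul, mulVec_inv']

section
variable [DecidableEq k] [DecidableEq K] [Fact p.Prime] [CharP k p] [CharP K p]

/-- simple submodules with exponents in `Θ` -/
theorem le_eWT_of_isV (hN : 0 < N) (hζ : S.ι c0 ^ N = 1) (hq : p ^ a ≤ N + 1) {X : Submodule k (D1 → k)}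
    {hX : ∀ x, ∀ v ∈ X, S.R x v ∈ X} {d : ℕ} (hd : IsV S.ι p (subRep S.R X hX) d)
    (hw : ∀ m ∈ Bf k d, Θ (wx N d m)) : X ≤ S.eWT c0 N Θ := by
  refine S.le_eWT hX fun y hy => ?_
  obtain ⟨v, hv⟩ := hd.bas
  have h1 : d ≤ N := by
    have h2 := hd.choose
    rw [S.cardK] at h2
    omega
  have h2 : (⊤ : Submodule k X) ≤ (S.eVT c0 N Θ).comap X.subtype := by
    refine hv.sp.trans (Submodule.span_le.2 ?_)
    rintro _ ⟨m, rfl⟩
    refine Submodule.subset_span ⟨_, Nat.mod_lt _ hN, hw m m.2, ?_⟩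
    have h3 := congrArg Subtype.val (hv.h m m.2 c0)
    rw [pow_wx hζ hN (le_of_Bf m.2) h1] at h3
    exact h3
  exact h2 (Submodule.mem_top (x := (⟨y, hy⟩ : X)))

/-- **`TorW` from a cocharacter and a label in the socle** -/
theorem e27_torw' (hp : p ≠ 2) (hs : S.SSC) (hN : 0 < N) (hζ : IsPrimitiveRoot (S.ι c0) N) (hq : p ^ a ≤ N + 1) {g : Gh k}
    {t : Fin chevE7.rank → kˣ} (ht : S.ψ (h c0) = g * Phi k t * g⁻¹) (hg : ∀ s, g * Phi k s * g⁻¹ ∈ S.P ⊓ S.P')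
    {e : D1 → ℕ} (he : ∀ μ, ((ch (wc μ) t : kˣ) : k) = S.ι c0 ^ e μ)
    (hΘ : ∀ j, S.Rot j → ∀ θ < N, Θ θ → Θ (p ^ j * θ % N)) {d : ℕ} (hd : InSoc S.ι p S.R d)
    (hw : ∀ m ∈ Bf k d, Θ (wx N d m)) {l : Fin 7 → ℤ} (hl0 : l ≠ 0)
    (hl : ∀ μ ν, e μ % N = e ν % N → Θ (e μ % N) → ∑ i, wc μ i * l i = ∑ i, wc ν i * l i) :
    Nonempty (S.TorW (rho k)) := by
  obtain ⟨X, hX, hd⟩ := hd
  refine S.e27_torw hp hs hN hζ ht hg he hΘ (fun h0 => ?_) hl0 hl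
  have h1 := S.le_eWT_of_isV hN hζ.pow_eq_one hq hd hw
  rw [h0, le_bot_iff] at h1
  subst h1
  obtain ⟨m, hm, -⟩ := hd.hw
  exact hm (Subsingleton.elim _ _)

/-- the socle is not zero -/
theorem e27_exists_soc : ∃ d, InSoc S.ι p S.R d ∧ d ∈ cf (@Sy.{u, u, v} k _ _ K _ _ _ S.ι p _ _ _ S.closed) S.R := by
  have := S.closed
  have : Nontrivial (D1 → k) := @Function.nontrivial _ _ ⟨topv⟩ _
  obtain ⟨X, hX, h0, h1⟩ := exists_irr_sub S.R
  obtain ⟨d, hd⟩ := (Sy.{u, u, v} S.ι p).ex (subRep S.R X hX) (irr_of_min S.R hX h0 h1)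
  refine ⟨d, ⟨X, hX, hd⟩, Multiset.mem_of_le (cf_sub_le _ S.R X hX) ?_⟩
  rw [cf_irr _ hd]
  exact Multiset.mem_singleton_self d

end

/-- a generator of the torus in a frame -/
theorem e27_frame : ∃ (c0 : Kˣ) (g : Gh k) (t : Fin chevE7.rank → kˣ), IsPrimitiveRoot (S.ι c0) (p ^ a - 1) ∧
    S.ψ (h c0) = g * Phi k t * g⁻¹ ∧ ∀ l s, g * nL k l * Phi k s * (g * nL k l)⁻¹ ∈ S.P ⊓ S.P' := by
  classical
  obtain ⟨fr⟩ := S.exists_frame
  obtain ⟨c0, hc⟩ := IsCyclic.exists_generator (α := Kˣ)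
  obtain ⟨t, ht⟩ := fr.ht c0
  refine ⟨c0, fr.g, t, ?_, ht, fr.mem⟩
  rw [← S.cardK]
  exact primitive S.ι S.ι.injective hc

end Sit

end Cfsg.Agent.E7P
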