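import Cfsg.Agent.E7P.Alm.Cj
import Cfsg.Agent.R2.H28.SL2.Both

/-!
# S5932, task E27: modules of `SL(2, q)` (helper97)

* `E27.Lf2`, `E27.ext0_of_lf2` : a finer criterion for the vanishing of extensions;
* `E27.cf_mono`, `E27.cf_orth`, `E27.cf_inf` : composition factors of submodules;
* `E27.soc_or_iso` : all factors of a self-dual module lie in the socle, or there is a simple isotropic submodule;
* `E27.soc_of_ext` : a factor of multiplicity one without extensions lies in the socle;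
* `E27.bfix_zero` : vectors which are fixed by the Borel subgroup;
* `E27.tri_zero` : symmetric trilinear maps on `V_13`, `q = 27`.
-/

set_option autoImplicit false
set_option linter.unusedSectionVars false

namespace Cfsg.Agent.E7P.E27

open Matrix Cfsg.Agent.H943.SL2Rel Cfsg.Agent.H943.SL2Mod Cfsg.Agent.H943.RepAdd Cfsg.Agent.R2.H28.SL2

universe u v w

/-- the arithmetic condition -/
def Lf2 (p a c b : ℕ) : Prop :=
  c < p ^ a - 1 ∧ (∀ i < a, b / p ^ i % p + 1 < p → (c + 2 * en p b i) % (p ^ a - 1) ≠ b % (p ^ a - 1)) ∧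
  ∀ i < a, c / p ^ i % p + 1 < p → ∃ j < p ^ a, ∀ m ≤ b, ¬ p ∣ b.choose m →
    (2 * m + c) % (p ^ a - 1) = (b + 2 * en p c i) % (p ^ a - 1) →
      1 ≤ j ∧ (p ^ a - 1 < j + en p c i ∨ p ∣ (j + en p c i).choose j) ∧ ¬ p ∣ (b - m).choose j

variable {k : Type u} [Field k] [DecidableEq k] {F : Type w} [Field F] [Fintype F] [DecidableEq F] (ι : F →+* k)
variable (p : ℕ) [Fact p.Prime] [CharP k p] [CharP F p]

/-- weight vectors of a simple module which are killed by `D_j` -/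
theorem zero_of_wt {V : Type*} [AddCommGroup V] [Module k V] {ρ : Representation k (SpecialLinearGroup (Fin 2) F) V}
    {b : ℕ} (hb : IsV ι p ρ b) {y : V} {e j : ℕ} (hh : ∀ a, ρ (h a) y = ι a ^ e • y) (hj : j < Fintype.card F)
    (hD : 1 ≤ j → Dm ι ρ j y = 0) (hm : ∀ m ≤ b, ¬ p ∣ b.choose m →
      2 * m % (Fintype.card F - 1) = (b + e) % (Fintype.card F - 1) → 1 ≤ j ∧ ¬ p ∣ (b - m).choose j) : y = 0 := by
  obtain ⟨v, hv⟩ := hb.bas
  have hb' := hb.choose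
  obtain ⟨c, rfl⟩ := (Submodule.mem_span_range_iff_exists_fun k).1 (hv.sp (Submodule.mem_top (x := y)))
  have hf : ∀ n, ∃ f : V →ₗ[k] k, ∀ m, f (v m) = if m = n ∧ m ∈ Bf k b then 1 else 0 := fun n => by
    obtain ⟨f, hf⟩ := Alm.exists_lin hv fun m => if m = n then (1 : k) else 0
    refine ⟨f, fun m => ?_⟩
    by_cases h1 : m ∈ Bf k b
    · rw [hf m h1]
      simp only [h1, and_true]
    · rw [hv.zero m h1, map_zero, if_neg fun h2 => h1 h2.2]
  refine Finset.sum_eq_zero fun m _ => ?_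
  by_cases h0 : c m = 0
  · rw [h0, zero_smul]
  exfalso
  have h1 := Alm.le_of_mem_Bf m.2
  have h2 : ∀ a : Fˣ, ι (a : F) ^ (2 * (m : ℕ)) = ι (a : F) ^ (b + e) := by
    intro a
    obtain ⟨f, hf⟩ := hf m
    have h3 := congrArg f (hh a)
    have ha : ι (a : F) ≠ 0 := (map_ne_zero ι).2 a.ne_zero
    rw [map_smul, map_sum, map_sum, map_sum, Finset.sum_eq_single m, Finset.sum_eq_single m, map_smul, hv.h m m.2, map_smul,
      map_smul, map_smul, hf, if_pos ⟨rfl, m.2⟩] at h3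
    · simp only [smul_eq_mul, mul_one] at h3
      have h4 : ι (a : F) ^ (m : ℕ) * (ι (a : F))⁻¹ ^ (b - m) = ι (a : F) ^ e := mul_left_cancel₀ h0 (h3.trans (mul_comm _ _))
      rw [inv_pow, mul_inv_eq_iff_eq_mul₀ (pow_ne_zero _ ha)] at h4
      rw [two_mul, pow_add]
      nth_rewrite 1 [h4]
      rw [← pow_add, ← pow_add]
      congr 1
      omega
    · intro n _ hn
      rw [map_smul, hf, if_neg fun h => hn (Subtype.ext h.1), smul_zero]
    · exact fun h => absurd (Finset.mem_univ _) h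
    · intro n _ hn
      rw [map_smul, hv.h n n.2, map_smul, map_smul, hf, if_neg fun h => hn (Subtype.ext h.1), smul_zero, smul_zero]
    · exact fun h => absurd (Finset.mem_univ _) h
  obtain ⟨h3, h4⟩ := hm m h1 (fun h => (Finset.mem_filter.1 m.2).2 ((CharP.cast_eq_zero_iff k p _).2 h)) (mod_of_pow ι h2)
  have h5 : (((b - m).choose j : ℕ) : k) ≠ 0 := fun h => h4 ((CharP.cast_eq_zero_iff k p _).1 h)
  obtain ⟨f, hf⟩ := hf (m + j)
  have h6 := congrArg f (hD h3)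
  rw [map_zero, map_sum, map_sum, Finset.sum_eq_single m, map_smul, Alm.Dm_bas p hb' hv m.2 h3 (by omega), map_smul, map_smul,
    hf, if_pos ⟨rfl, Alm.add_mem_of_choose m.2 h5⟩] at h6
  · simp only [smul_eq_mul, mul_one] at h6
    exact mul_ne_zero h0 h5 h6
  · intro n _ hn
    rw [map_smul, Alm.Dm_bas p hb' hv n.2 h3 (by omega), map_smul, map_smul, hf,
      if_neg fun h => hn (Subtype.ext (by have := h.1; omega)), smul_zero, smul_zero]
  · exact fun h => absurd (Finset.mem_univ _) h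

variable [IsAlgClosed k]

/-- **no extensions** -/
theorem ext0_of_lf2 {a : ℕ} (hF : Fintype.card F = p ^ a) {c b : ℕ} (hL : Lf2 p a c b) :
    Ext0 (Sy.{u, v, w} ι p) c b := by
  intro V _ _ _ ρ W hW hb hc
  have hb : IsV ι p (subRep ρ W hW) b := hb
  have hc : IsV ι p (quotRep ρ W hW) c := hc
  have hp : p.Prime := Fact.out
  have hq := one_lt (F := F)
  have hmem : ∀ z : V, W.mkQ z = 0 → z ∈ W := fun z hz => (Submodule.Quotient.mk_eq_zero W).1 hz
  obtain ⟨m, hm0, hmu, hmh, -, hmD, -, -⟩ := hc.hw2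
  obtain ⟨x₀, hx₀⟩ := W.mkQ_surjective m
  obtain ⟨x, hx, hxu, hxh⟩ := lift_one ι p ρ W hW hF hb hL.2.1 (x := x₀)
    (fun t => hmem _ (by rw [map_sub, ← quotRep_mk ρ W hW, hx₀, hmu, sub_self]))
    (fun a => hmem _ (by rw [map_sub, ← quotRep_mk ρ W hW, hx₀, hmh, map_smul, hx₀, sub_self]))
  have hxm : W.mkQ x = m := by
    have h1 : W.mkQ (x - x₀) = 0 := (Submodule.Quotient.mk_eq_zero W).2 hx
    rw [map_sub, sub_eq_zero] at h1
    rw [h1, hx₀]
  have hwx : ∀ a, ρ (h a) (ρ w x) = ι (a : F) ^ ((Fintype.card F - 1 - 1) * c) • ρ w x := by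
    intro a
    rw [apply_mul, h_w, ← apply_mul, hxh, map_smul, inv_pow_eq]
  have hD : ∀ i < a, c / p ^ i % p + 1 < p → Dm ι ρ (en p c i) (ρ w x) = 0 := by
    intro i hi hlt
    have he1 : 1 ≤ en p c i := en_pos hp.pos
    have he2 : en p c i ≤ Fintype.card F - 1 := by
      rw [hF]
      exact en_le hp.pos hi hlt
    have h1 : Dm ι ρ (en p c i) (ρ w x) ∈ W := by
      apply hmem
      rw [Dm_comm ι ρ (quotRep ρ W hW) W.mkQ (fun g y => (quotRep_mk ρ W hW g y).symm), ← quotRep_mk ρ W hW, hxm]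
      exact hmD _ he1 he2 (dvd_choose_en hp hlt)
    obtain ⟨j, hj, hj'⟩ := hL.2.2 i hi hlt
    by_contra hne
    have h2 : ∀ m ≤ b, ¬ p ∣ b.choose m → 2 * m % (Fintype.card F - 1) =
        (b + (2 * en p c i + (Fintype.card F - 1 - 1) * c)) % (Fintype.card F - 1) →
        1 ≤ j ∧ (p ^ a - 1 < j + en p c i ∨ p ∣ (j + en p c i).choose j) ∧ ¬ p ∣ (b - m).choose j := by
      intro m h3 h4 h5
      refine hj' m h3 h4 ?_
      have h6 : (Fintype.card F - 1 - 1) * c + c = (Fintype.card F - 1) * c := by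
        rw [← Nat.succ_mul]
        congr 1
        omega
      rw [← hF, Nat.add_mod, h5, ← Nat.add_mod, show b + (2 * en p c i + (Fintype.card F - 1 - 1) * c) + c =
        (b + 2 * en p c i) + ((Fintype.card F - 1 - 1) * c + c) by ring, h6, Nat.add_mul_mod_self_left]
    have hh : ∀ a, subRep ρ W hW (h a) ⟨_, h1⟩ = ι a ^ (2 * en p c i + (Fintype.card F - 1 - 1) * c) • (⟨_, h1⟩ : W) :=
      fun a => Subtype.ext (by
        show ρ (h a) (Dm ι ρ (en p c i) (ρ w x)) = ι a ^ (2 * en p c i + (Fintype.card F - 1 - 1) * c) •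
          Dm ι ρ (en p c i) (ρ w x)
        rw [h_Dm ι ρ he2, hwx, map_smul, smul_smul, pow_add])
    by_cases h3 : ∃ m ≤ b, ¬ p ∣ b.choose m ∧ 2 * m % (Fintype.card F - 1) =
        (b + (2 * en p c i + (Fintype.card F - 1 - 1) * c)) % (Fintype.card F - 1)
    · obtain ⟨m, h3, h4, h5⟩ := h3
      obtain ⟨-, h6, -⟩ := h2 m h3 h4 h5
      refine hne (congrArg Subtype.val (zero_of_wt ι p hb hh (j := j) (by omega) (fun h7 => Subtype.ext ?_)
        fun m h3 h4 h5 => ⟨(h2 m h3 h4 h5).1, (h2 m h3 h4 h5).2.2⟩))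
      refine (Dm_comm ι (subRep ρ W hW) ρ W.subtype (fun g y => rfl) j _).trans ?_
      show Dm ι ρ j (Dm ι ρ (en p c i) (ρ w x)) = 0
      by_cases h8 : Fintype.card F - 1 < j + en p c i
      · exact Dm_mul_zero ι ρ h7 he1 (by omega) he2 h8 _
      · rw [Dm_mul' ι ρ p hF h7 he1 (by omega), (CharP.cast_eq_zero_iff k p _).2 (h6.resolve_left (by omega)), zero_smul]
    · exact hne (congrArg Subtype.val (zero_of_wt ι p hb hh (j := 0) (by omega) (fun h7 => by omega)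
        fun m h4 h5 h6 => absurd ⟨m, h4, h5, h6⟩ h3))
  have hS : SS ρ x = cb k F c • x := by
    have h1 : c < Fintype.card F - 1 := by rw [hF]; exact hL.1
    have h2 := Dm_zero_of ι p ρ hF hD le_rfl (by rw [Nat.choose_eq_zero_of_lt h1]; exact dvd_zero p)
    rw [Dm_apply, neg_eq_zero] at h2
    rw [cb, if_pos h1, zero_smul, SS_apply, ← h2]
    exact Finset.sum_congr rfl fun t _ => by rw [Nat.sub_self, pow_zero, one_smul]
  obtain ⟨f, hf, hfm⟩ := gen_hw ι p ρ hF hc hm0 hmu hxu hxh hS hD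
  have hsec : ∀ z, W.mkQ (f z) = z := by
    have h1 := hc.irr.2 (LinearMap.eqLocus (W.mkQ ∘ₗ f) LinearMap.id) (by
      intro g z hz
      have hz' : W.mkQ (f z) = z := hz
      show W.mkQ (f (quotRep ρ W hW g z)) = quotRep ρ W hW g z
      rw [hf, ← quotRep_mk ρ W hW, hz'])
    rcases h1 with h1 | h1
    · have h2 : m ∈ LinearMap.eqLocus (W.mkQ ∘ₗ f) LinearMap.id := by
        show W.mkQ (f m) = m
        rw [hfm, hxm]
      rw [h1, Submodule.mem_bot] at h2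
      exact absurd h2 hm0
    · intro z
      have h2 : z ∈ LinearMap.eqLocus (W.mkQ ∘ₗ f) LinearMap.id := by rw [h1]; trivial
      exact h2
  refine ⟨LinearMap.range f, ?_, ?_, ?_⟩
  · rintro g _ ⟨y, rfl⟩
    exact ⟨_, hf g y⟩
  · rw [Submodule.disjoint_def]
    rintro _ hy ⟨y, rfl⟩
    rw [← hsec y, (Submodule.Quotient.mk_eq_zero W).2 hy |> fun h => (show W.mkQ (f y) = 0 from h), map_zero]
  · rw [codisjoint_iff, eq_top_iff]
    intro y _
    exact Submodule.mem_sup.2 ⟨y - f (W.mkQ y), hmem _ (by rw [map_sub, hsec, sub_self]), _, ⟨_, rfl⟩, sub_add_cancel _ _⟩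

variable {V : Type v} [AddCommGroup V] [Module k V] [FiniteDimensional k V]
  {ρ : Representation k (SpecialLinearGroup (Fin 2) F) V} {B : V →ₗ[k] V →ₗ[k] k}

theorem cf_mono {W W' : Submodule k V} (hW : ∀ g, ∀ x ∈ W, ρ g x ∈ W) (hW' : ∀ g, ∀ x ∈ W', ρ g x ∈ W') (h : W ≤ W') :
    cf (Sy.{u, v, w} ι p) (subRep ρ W hW) ≤ cf (Sy.{u, v, w} ι p) (subRep ρ W' hW') := by
  obtain ⟨hk, hr, h1, -⟩ := cf_exact (Sy.{u, v, w} ι p) (subRep ρ W hW) (subRep ρ W' hW') (Submodule.inclusion h)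
    fun g x => rfl
  have : Subsingleton (LinearMap.ker (Submodule.inclusion h)) := by
    rw [Submodule.ker_inclusion]
    infer_instance
  rw [h1, cf_zero, zero_add]
  exact cf_sub_le _ _ _ _

theorem cf_orth (D : Dul ρ ρ B) {W : Submodule k V} (hW : ∀ g, ∀ x ∈ W, ρ g x ∈ W) :
    cf (Sy.{u, v, w} ι p) (subRep ρ W hW) + cf (Sy.{u, v, w} ι p) (subRep ρ _ (D.orth_inv hW)) = cf (Sy.{u, v, w} ι p) ρ := by
  obtain ⟨B', D', -⟩ := D.sub hW
  rw [cf_add _ ρ _ (D.orth_inv hW), cf_dual ι p D', add_comm]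

theorem inf_inv {W W' : Submodule k V} (hW : ∀ g, ∀ x ∈ W, ρ g x ∈ W) (hW' : ∀ g, ∀ x ∈ W', ρ g x ∈ W') :
    ∀ g, ∀ x ∈ W ⊓ W', ρ g x ∈ W ⊓ W' := fun g x hx => ⟨hW g x hx.1, hW' g x hx.2⟩

theorem cf_inf {W W' : Submodule k V} (hW : ∀ g, ∀ x ∈ W, ρ g x ∈ W) (hW' : ∀ g, ∀ x ∈ W', ρ g x ∈ W') :
    cf (Sy.{u, v, w} ι p) (subRep ρ W hW) + cf (Sy.{u, v, w} ι p) (subRep ρ W' hW') ≤
      cf (Sy.{u, v, w} ι p) (subRep ρ _ (inf_inv hW hW')) + cf (Sy.{u, v, w} ι p) ρ := by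
  obtain ⟨hk, hr, h1, -⟩ := cf_exact (Sy.{u, v, w} ι p) (subRep ρ W hW) (quotRep ρ W' hW') (W'.mkQ ∘ₗ W.subtype)
    fun g x => rfl
  obtain ⟨h2, h3⟩ := eqv_map (subRep ρ W hW) ρ W.subtype (fun g x => rfl) W.injective_subtype _ hk
  have h4 : (LinearMap.ker (W'.mkQ ∘ₗ W.subtype)).map W.subtype ≤ W ⊓ W' := by
    rintro _ ⟨x, hx, rfl⟩
    exact ⟨x.2, (Submodule.Quotient.mk_eq_zero W').1 hx⟩
  rw [h1, cf_iso _ h3, cf_add _ ρ W' hW', add_assoc, add_comm (cf _ (subRep ρ W' hW'))]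
  exact add_le_add (cf_mono ι p _ _ h4) (add_le_add (cf_sub_le _ _ _ _) le_rfl)

theorem exists_le {W : Submodule k V} (hW : ∀ g, ∀ x ∈ W, ρ g x ∈ W) (h0 : W ≠ ⊥) :
    ∃ (X : Submodule k V) (hX : ∀ g, ∀ x ∈ X, ρ g x ∈ X) (c : ℕ), X ≤ W ∧ IsV ι p (subRep ρ X hX) c := by
  obtain ⟨c, ⟨X, hX, hc⟩, -⟩ := exists_inSoc_sub ι p hW h0
  obtain ⟨h2, e, he⟩ := eqv_map (subRep ρ W hW) ρ W.subtype (fun g x => rfl) W.injective_subtype X hX
  exact ⟨_, h2, c, Submodule.map_subtype_le _ _, hc.iso ι p e he⟩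

theorem isV_ne {X : Submodule k V} {hX : ∀ g, ∀ x ∈ X, ρ g x ∈ X} {c : ℕ} (h : IsV ι p (subRep ρ X hX) c) : X ≠ ⊥ :=
  Submodule.nontrivial_iff_ne_bot.1 (h.irr ι p).1

theorem two_le_of_iso (D : Dul ρ ρ B) {X : Submodule k V} (hX : ∀ g, ∀ x ∈ X, ρ g x ∈ X) (h : X ≤ orth B X) {c : ℕ}
    (hc : c ∈ cf (Sy.{u, v, w} ι p) (subRep ρ X hX)) : 2 ≤ (cf (Sy.{u, v, w} ι p) ρ).count c := by
  have h1 := Multiset.count_pos.2 hc
  have h2 := Multiset.count_pos.2 (Multiset.mem_of_le (cf_mono ι p hX (D.orth_inv hX) h) hc)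
  rw [← cf_orth ι p D hX, Multiset.count_add]
  omega

/-- **the socle of a self-dual module** -/
theorem soc_or_iso (D : Dul ρ ρ B) : (∀ b ∈ cf (Sy.{u, v, w} ι p) ρ, InSoc ι p ρ b) ∨
    ∃ (X : Submodule k V) (hX : ∀ g, ∀ x ∈ X, ρ g x ∈ X) (b : ℕ), IsV ι p (subRep ρ X hX) b ∧ X ≤ orth B X ∧
      2 ≤ (cf (Sy.{u, v, w} ι p) ρ).count b := by
  by_contra hc
  rw [not_or] at hc
  refine hc.1 (ss_of_compl ι p _ V ρ le_rfl fun X hX b hb => ⟨orth B X, D.orth_inv hX, ?_⟩)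
  rcases hb.inf_or_le ι p (D.orth_inv hX) with h1 | h1
  · obtain ⟨B', D', -⟩ := D.sub hX
    have h2 := D'.finrank_eq
    have h3 := (orth B X).finrank_quotient_add_finrank
    exact (Submodule.isCompl_iff_disjoint X _ (by omega)).2 (disjoint_iff.2 h1)
  · exact absurd ⟨X, hX, b, hb, h1, two_le_of_iso ι p D hX h1 (mem_cf_of_le ι p hb hX le_rfl)⟩ hc.2

/-- **factors without extensions** -/
theorem soc_of_ext (D : Dul ρ ρ B) {b : ℕ} (h1 : (cf (Sy.{u, v, w} ι p) ρ).count b = 1)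
    (hE : ∀ c, 2 ≤ (cf (Sy.{u, v, w} ι p) ρ).count c → Ext0 (Sy.{u, v, w} ι p) b c) : InSoc ι p ρ b := by
  obtain ⟨N, ⟨hN, hb⟩, hmin⟩ := (wellFounded_lt (α := Submodule k V)).has_min
    {N | ∃ hN : ∀ g, ∀ x ∈ N, ρ g x ∈ N, b ∈ cf (Sy.{u, v, w} ι p) (subRep ρ N hN)}
    ⟨⊤, fun _ _ _ => trivial, by
      rw [cf_iso _ (ρ' := ρ) ⟨Submodule.topEquiv, fun _ _ => rfl⟩, ← Multiset.count_pos, h1]
      exact one_pos⟩
  obtain ⟨M, ⟨hM, hMN, hb'⟩, hmax⟩ := (wellFounded_gt (α := Submodule k V)).has_min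
    {M | ∃ hM : ∀ g, ∀ x ∈ M, ρ g x ∈ M, M ≤ N ∧ b ∉ cf (Sy.{u, v, w} ι p) (subRep ρ M hM)}
    ⟨⊥, fun g x hx => by rw [(Submodule.mem_bot k).1 hx, map_zero]; exact zero_mem _, bot_le, by
      rw [cf_zero]; exact Multiset.notMem_zero b⟩
  have h2 : N ≤ orth B M := by
    have h3 := Multiset.count_le_of_le b (cf_inf ι p hN (D.orth_inv hM))
    have h4 := congrArg (Multiset.count b) (cf_orth ι p D hM)
    have h5 := Multiset.count_pos.2 hb
    have h6 := Multiset.count_eq_zero.2 hb'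
    rw [Multiset.count_add, Multiset.count_add] at h3
    rw [Multiset.count_add] at h4
    have h7 : N ⊓ orth B M = N := by
      by_contra h8
      exact hmin _ ⟨_, Multiset.count_pos.1 (by omega)⟩ (lt_of_le_of_ne inf_le_left h8)
    exact h7.ge.trans inf_le_right
  have h3 : ∀ g, ∀ x ∈ N.map M.mkQ, quotRep ρ M hM g x ∈ N.map M.mkQ := by
    rintro g _ ⟨x, hx, rfl⟩
    exact ⟨_, hN g x hx, rfl⟩
  obtain ⟨Z, hZ, c, h4, hc⟩ := exists_le ι p h3 (fun h0 => by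
    have h4 : N ≤ M := fun x hx => (Submodule.Quotient.mk_eq_zero M).1
      ((Submodule.mem_bot k).1 (h0 ▸ Submodule.mem_map_of_mem (f := M.mkQ) hx))
    exact hb' (Multiset.mem_of_le (cf_mono ι p hN hM h4) hb))
  obtain ⟨hY, hW', e1, e2⟩ := eqv_comap ρ M hM Z hZ
  have h5 := cf_add (Sy.{u, v, w} ι p) (subRep ρ _ hY) _ hW'
  rw [cf_iso _ e1, cf_iso _ e2, cf_irr (Sy.{u, v, w} ι p) hc] at h5
  have h6 : c = b := by
    by_contra h6
    refine hmax (Z.comap M.mkQ) ⟨hY, fun x hx => ?_, fun h7 => ?_⟩ (lt_of_le_of_ne (fun x hx => ?_) fun h7 => ?_)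
    · obtain ⟨y, hy, e⟩ := h4 hx
      have h8 : y - x ∈ M := (Submodule.Quotient.eq M).1 e
      rw [← sub_sub_cancel y x]
      exact N.sub_mem hy (hMN h8)
    · rw [h5, Multiset.mem_add, Multiset.mem_singleton] at h7
      exact h7.elim hb' fun h => h6 h.symm
    · show M.mkQ x ∈ Z
      rw [(Submodule.Quotient.mk_eq_zero M).2 hx |> fun h => (show M.mkQ x = 0 from h)]
      exact zero_mem _
    · refine isV_ne ι p hc (eq_bot_iff.2 fun z hz => ?_)
      obtain ⟨x, rfl⟩ := M.mkQ_surjective z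
      exact (Submodule.Quotient.mk_eq_zero M).2 (h7.ge hz)
  subst h6
  obtain ⟨X, hX, h6, -⟩ := lift0 (S := Sy.{u, v, w} ι p) M hM
    (fun d hd => hE d (two_le_of_iso ι p D hM (hMN.trans h2) hd)) Z hZ hc
  exact ⟨X, hX, h6⟩

/-- non-degenerate submodules -/
theorem dul_res (D : Dul ρ ρ B) (hr : ∀ x y, B x y = 0 → B y x = 0) {W : Submodule k V} (hW : ∀ g, ∀ x ∈ W, ρ g x ∈ W)
    (h0 : W ⊓ orth B W = ⊥) : Dul (subRep ρ _ (D.orth_inv hW)) (subRep ρ _ (D.orth_inv hW))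
      (B.domRestrict₁₂ (orth B W) (orth B W)) := by
  have h1 : ∀ x : orth B W, (∀ y : orth B W, B x y = 0) → x = 0 := fun x hx =>
    Subtype.ext ((Submodule.mem_bot k).1 (h0 ▸ (⟨D.orth_orth W x fun y hy => hx ⟨y, hy⟩, x.2⟩ : (x : V) ∈ W ⊓ orth B W)))
  exact ⟨fun g x y => D.inv g x y, h1, fun y hy => h1 y fun x => hr _ _ (hy x)⟩

/-- **vectors which are fixed by the Borel subgroup** -/
theorem bfix_zero {a : ℕ} (hF : Fintype.card F = p ^ a) (hfx : ∀ x, (∀ g, ρ g x = x) → x = 0)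
    (h0 : p ^ a - 1 ∉ cf (Sy.{u, v, w} ι p) ρ) (hd : ∀ i < a, p ≤ (p ^ a - 1) / p ^ i % p + 1) {x : V}
    (hu : ∀ t, ρ (u t) x = x) (hh : ∀ c, ρ (h c) x = x) : x = 0 := by
  by_contra hx
  have hb : p ^ a - 1 ≤ Fintype.card F - 1 := by rw [hF]
  have hV : IsV ι p (RB ι p hb) (p ^ a - 1) := ⟨hb, LinearEquiv.refl _ _, fun _ _ => rfl⟩
  obtain ⟨m, hm0, hmu, -⟩ := hV.hw
  have h1 := hfx _ (avg_fixed ρ hu hh)
  obtain ⟨f, hf, hfm⟩ := gen_hw ι p ρ hF hV hm0 hmu hu (fun c => by rw [hh, ← hF, powQ ι c.ne_zero, one_smul])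
    (by rw [cb, if_neg (by omega), SS_apply, neg_one_smul]; exact eq_neg_of_add_eq_zero_right h1)
    fun i hi h2 => absurd (hd i hi) (by omega)
  exact h0 (inSoc_of_hom ι p hV f hf fun h2 => hx (by rw [← hfm, h2]; rfl)).mem_cf

/-- comparison of coefficients -/
theorem coef_zero {I Y : Type*} [AddCommGroup Y] [Module k Y] (s : Finset I) (d : I → ℕ) (y : I → Y)
    (hd : ∀ i ∈ s, d i ≤ Fintype.card F - 1) (h0 : ∀ t : F, ∑ i ∈ s, ι t ^ d i • y i = 0) (n : ℕ)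
    (hn : n ≤ Fintype.card F - 1) : ∑ i ∈ s.filter fun i => d i = n, y i = 0 := by
  rw [Finset.sum_filter]
  rcases Nat.eq_zero_or_pos n with rfl | h1
  · refine (Finset.sum_congr rfl fun i _ => ?_).trans (h0 0)
    rw [map_zero]
    split_ifs with h2
    · rw [h2, pow_zero, one_smul]
    · rw [zero_pow h2, zero_smul]
  · have h2 : ∑ t : F, ι t ^ (Fintype.card F - 1 - n) • ∑ i ∈ s, ι t ^ d i • y i = 0 :=
      Finset.sum_eq_zero fun t _ => by rw [h0, smul_zero]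
    simp only [Finset.smul_sum, smul_smul, ← pow_add] at h2
    rw [Finset.sum_comm, ← neg_eq_zero, ← Finset.sum_neg_distrib] at h2
    refine (Finset.sum_congr rfl fun i hi => ?_).trans h2
    have h3 := hd i hi
    rw [← Finset.sum_smul, psum ι (by omega)]
    by_cases h4 : d i = n
    · rw [if_pos h4, if_pos (by omega), neg_smul, neg_neg, one_smul]
    · rw [if_neg h4, if_neg (by omega), zero_smul, neg_zero]

/-- the weights of `V_13` -/
def B13 : Finset ℕ := {0, 1, 3, 4, 9, 10, 12, 13}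

/-- pairs which are determined by their sum -/
def P0 (i j : ℕ) : Prop := ∀ i' ∈ B13, ∀ j' ∈ B13, i' + j' = i + j → (i' = i ∧ j' = j) ∨ (i' = j ∧ j' = i)

instance P0.dec (i j : ℕ) : Decidable (P0 i j) := by unfold P0; infer_instance

theorem B13_cases : ∀ i ∈ B13, ∀ j ∈ B13, ∀ l ∈ B13, P0 i l ∨ P0 j l ∨ ∀ i' ∈ B13, ∀ j' ∈ B13, i' + j' = i + j →
    ((i' = i ∧ j' = j) ∨ (i' = j ∧ j' = i)) ∨ P0 i' l ∨ P0 j' l := by decide +kernel

theorem B13_choose : ∀ j ∈ Finset.range 14, Nat.choose 13 j % 3 = if j ∈ B13 then 1 else 0 := by decide +kernel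

theorem B13_sub : B13 ⊆ Finset.range 14 := by decide

theorem pair_zero {Y : Type*} [AddCommGroup Y] [Module k Y] (h2 : (2 : k) ≠ 0) (f : ℕ → ℕ → Y) (hs : ∀ i j, f i j = f j i)
    {i j : ℕ} (hi : i ∈ B13) (hj : j ∈ B13) (h0 : ∑ x ∈ (B13 ×ˢ B13).filter fun x => x.1 + x.2 = i + j, f x.1 x.2 = 0)
    (h1 : ∀ i' ∈ B13, ∀ j' ∈ B13, i' + j' = i + j → ((i' = i ∧ j' = j) ∨ (i' = j ∧ j' = i)) ∨ f i' j' = 0) : f i j = 0 := by
  have h3 : ({(i, j), (j, i)} : Finset (ℕ × ℕ)) ⊆ (B13 ×ˢ B13).filter fun x => x.1 + x.2 = i + j := by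
    intro x hx
    rw [Finset.mem_insert, Finset.mem_singleton] at hx
    rcases hx with rfl | rfl
    · exact Finset.mem_filter.2 ⟨Finset.mem_product.2 ⟨hi, hj⟩, rfl⟩
    · exact Finset.mem_filter.2 ⟨Finset.mem_product.2 ⟨hj, hi⟩, add_comm _ _⟩
  rw [← Finset.sum_subset h3 fun x hx hx' => ?_] at h0
  · by_cases h4 : i = j
    · subst h4
      rwa [Finset.pair_eq_singleton, Finset.sum_singleton] at h0
    · rw [Finset.sum_pair fun h => h4 (congrArg Prod.fst h)] at h0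
      have h5 : (2 : k) • f i j = 0 := by rw [two_smul, ← h0, hs j i]
      exact (smul_eq_zero.1 h5).resolve_left h2
  · obtain ⟨h4, h5⟩ := Finset.mem_filter.1 hx
    obtain ⟨h6, h7⟩ := Finset.mem_product.1 h4
    refine (h1 _ h6 _ h7 h5).resolve_left fun h => hx' ?_
    rw [Finset.mem_insert, Finset.mem_singleton]
    exact h.imp (fun h => Prod.ext h.1 h.2) fun h => Prod.ext h.1 h.2

/-- **symmetric trilinear maps on `V_13`** -/
theorem tri_zero [CharP k 3] (hF : Fintype.card F = 27) {X : Type*} [AddCommGroup X] [Module k X]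
    {σ : Representation k (SpecialLinearGroup (Fin 2) F) X} {v : ℕ → X} (hv : Bas ι σ 13 v) {Y : Type*} [AddCommGroup Y]
    [Module k Y] (T : X → X → X →ₗ[k] Y) (s12 : ∀ x y z, T x y z = T y x z) (s23 : ∀ x y z, T x y z = T x z y)
    (h0 : ∀ t z, T (σ (u t) (v 0)) (σ (u t) (v 0)) z = 0) (x y z : X) : T x y z = 0 := by
  have h2 : (2 : k) ≠ 0 := fun h => absurd ((CharP.cast_eq_zero_iff k 3 2).1 (by exact_mod_cast h)) (by decide)
  have h3 : ∀ j ∈ Finset.range 14, ((Nat.choose 13 j : ℕ) : k) = if j ∈ B13 then 1 else 0 := fun j hj => by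
    rw [CharP.cast_eq_mod k 3, B13_choose j hj]
    split_ifs
    · exact Nat.cast_one
    · exact Nat.cast_zero
  have hB : ∀ j ∈ Bf k 13, j ∈ B13 := fun j hj => by
    obtain ⟨h4, h5⟩ := Finset.mem_filter.1 hj
    by_contra h6
    exact h5 (by rw [h3 j h4, if_neg h6])
  have h4 : ∀ t, σ (u t) (v 0) = ∑ j ∈ B13, ι t ^ j • v j := fun t => by
    rw [hv.u 0 Alm.zero_mem_Bf, ← Finset.sum_subset B13_sub fun j hj hj' => by rw [h3 j hj, if_neg hj', zero_mul, zero_smul]]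
    exact Finset.sum_congr rfl fun j hj => by rw [h3 j (B13_sub hj), if_pos hj, one_mul, zero_add]
  have h5 : ∀ z, ∀ n ≤ 26, ∑ x ∈ (B13 ×ˢ B13).filter fun x => x.1 + x.2 = n, T (v x.1) (v x.2) z = 0 := fun z n hn => by
    refine coef_zero ι _ (fun x : ℕ × ℕ => x.1 + x.2) _ (by rw [hF]; decide) (fun t => ?_) n (by omega)
    rw [← h0 t z, Finset.sum_product, s23, s12]
    nth_rewrite 2 [h4]
    rw [s23, h4 t]
    nth_rewrite 1 [map_sum]
    refine Finset.sum_congr rfl fun i _ => ?_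
    rw [map_smul, s23, map_sum, Finset.smul_sum]
    refine Finset.sum_congr rfl fun j _ => ?_
    rw [map_smul, smul_smul, ← pow_add, s12 z, s23 _ z]
  have h6 : ∀ i ∈ B13, ∀ j ∈ B13, i + j ≤ 26 := by decide
  have h7 : ∀ i ∈ B13, ∀ j ∈ B13, P0 i j → ∀ z, T (v i) (v j) z = 0 := fun i hi j hj h z =>
    pair_zero h2 (fun i j => T (v i) (v j) z) (fun _ _ => s12 _ _ _) hi hj (h5 z _ (h6 i hi j hj))
      fun i' hi' j' hj' e => Or.inl (h i' hi' j' hj' e)
  have h8 : ∀ i ∈ B13, ∀ j ∈ B13, ∀ l ∈ B13, P0 i l ∨ P0 j l → T (v i) (v j) (v l) = 0 := fun i hi j hj l hl h => by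
    rcases h with h | h
    · rw [s23, h7 i hi l hl h]
    · rw [s12, s23, h7 j hj l hl h]
  have h9 : ∀ i ∈ B13, ∀ j ∈ B13, ∀ l ∈ B13, T (v i) (v j) (v l) = 0 := fun i hi j hj l hl => by
    rcases or_assoc.2 (B13_cases i hi j hj l hl) with h | h
    · exact h8 i hi j hj l hl h
    · exact pair_zero h2 (fun i j => T (v i) (v j) (v l)) (fun _ _ => s12 _ _ _) hi hj (h5 _ _ (h6 i hi j hj))
        fun i' hi' j' hj' e => (h i' hi' j' hj' e).imp_right (h8 i' hi' j' hj' l hl)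
  have key : ∀ f : X →ₗ[k] Y, (∀ l ∈ B13, f (v l) = 0) → ∀ z, f z = 0 := fun f hf z => by
    rw [Alm.ext_bas hv (f := f) (g := 0) fun m hm => hf m (hB m hm)]
    rfl
  refine key _ (fun l hl => ?_) z
  rw [s23]
  refine key _ (fun j hj => ?_) y
  rw [s12, s23]
  refine key _ (fun i hi => h9 l hl j hj i hi) x

end Cfsg.Agent.E7P.E27
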