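import Cfsg.Agent.E7P.E27.Tab

/-!
# S5932, task E27: the socle of the 56-dimensional module (helper97)

* `Sit.e27_iso` : there is no stable isotropic submodule `V_13` if the Steinberg module is not a factor of the Lie algebra;
* `Sit.e27_soc`, `Sit.e27_socOK` : a label with a certificate lies in the socle.
-/

set_option autoImplicit false
set_option maxRecDepth 100000
set_option linter.unusedSectionVars false

namespace Cfsg.Agent.E7P

open Cfsg Cfsg.Lie Matrix Module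
open Cfsg.Agent.H943.E7V.Block (D1 rho)
open Cfsg.Agent.R2.T1 Cfsg.Agent.E7P.Kf
open Cfsg.Agent.R2.PX (del DD dd ddL del_dd DD_comm)
open Cfsg.Agent.H943.SL2Rel Cfsg.Agent.H943.SL2Mod Cfsg.Agent.H943.RepAdd
open Cfsg.Agent.R2.H28.SL2
open Cfsg.Agent.H179.SLC (IsSS isSS_h)

universe u v

namespace E27

/-- the exponents of `V_13` -/
def Θ13 (θ : ℕ) : Prop := θ ∈ [13, 11, 15, 7, 19, 5, 21]

instance Θ13.dec (θ : ℕ) : Decidable (Θ13 θ) := by unfold Θ13; infer_instance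

theorem Θ13_mul : ∀ θ < 26, Θ13 θ → Θ13 (3 * θ % 26) := by decide

theorem Θ13_wt : ∀ m < 27, sb 13 m = true → Θ13 (wx 26 13 m) := by decide

theorem Θ13_eq : ∀ d < 27, (∀ m < 27, sb d m = true → Θ13 (wx 26 d m)) → d = 13 := by decide +kernel

theorem pow_closed {Θ : ℕ → Prop} (h : ∀ θ < 26, Θ θ → Θ (3 * θ % 26)) (j : ℕ) : ∀ θ < 26, Θ θ → Θ (3 ^ j * θ % 26) := by
  induction j with
  | zero => intro θ h1 h2; rwa [pow_zero, one_mul, Nat.mod_eq_of_lt h1]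
  | succ j ih =>
    intro θ h1 h2
    have h3 := h _ (Nat.mod_lt _ (by decide)) (ih θ h1 h2)
    rwa [Nat.mul_mod_mod, ← mul_assoc, ← pow_succ'] at h3

end E27

namespace Sit

open E27

section
variable {p a b : ℕ} {F : Type u} {K : Type v} {k : Type u} [Field F] [Fintype F] [Field K] [Fintype K] [Field k]
  (S : Sit p a b F K k) [DecidableEq k] [DecidableEq K] [Fact p.Prime] [CharP k p] [CharP K p] [IsAlgClosed k]

theorem e27_dul : Dul S.R S.R (sf k) := ⟨fun _ x y => sf_V _ x y, fun _ h => sf_nondeg' h, fun _ h => sf_nondeg h⟩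

/-- the factors of `eWT` -/
theorem e27_cf_eWT {c0 : Kˣ} {N : ℕ} {Θ : ℕ → Prop} (hζ : IsPrimitiveRoot (S.ι c0) N) (hN : (N : k) ≠ 0) (hq : p ^ a ≤ N + 1)
    {g : Gh k} {t : Fin chevE7.rank → kˣ} (ht : S.ψ (h c0) = g * Phi k t * g⁻¹) {e : D1 → ℕ}
    (he : ∀ μ, ((ch (wc μ) t : kˣ) : k) = S.ι c0 ^ e μ) {hW : ∀ x, ∀ y ∈ S.eWT c0 N Θ, S.R x y ∈ S.eWT c0 N Θ} {d : ℕ}
    (hd : d ∈ cf (Sy.{u, u, v} S.ι p) (subRep S.R _ hW)) {m : ℕ} (hm : m ∈ Bf k d) : Θ (wx N d m) := by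
  have h0 : 0 < N := Nat.pos_of_ne_zero fun h => hN (by rw [h, Nat.cast_zero])
  by_contra hc
  have h1 := (isMult_cf S.ι p S.cardK (subRep S.R _ hW)).eigen (h c0) _ N (isSS_h S.ι c0) hζ.pow_eq_one hN
    (S.ι c0 ^ wx N d m) (by rw [← pow_mul, mul_comm, pow_mul, hζ.pow_eq_one, one_pow])
  have h2 : eig (subRep S.R _ hW) (h c0) (S.ι c0 ^ wx N d m) = ⊥ := by
    refine eq_bot_iff.2 fun y hy => (Submodule.mem_bot k).2 (Subtype.ext ?_)
    have h3 : rho k (S.ψ (h c0)) *ᵥ (y : D1 → k) = S.ι c0 ^ wx N d m • (y : D1 → k) := congrArg Subtype.val ((mem_eig _).1 hy)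
    have h4 : rho k g⁻¹ *ᵥ (y : D1 → k) = 0 := by
      funext μ
      by_contra h4
      have h5 := congrArg (fun x => (rho k g⁻¹ *ᵥ x) μ) h3
      simp only [ht, mulVec_mul, mulVec_inv, mulVec_smul] at h5
      rw [wrep_V.tor, mulVec_diagonal, Pi.smul_apply, smul_eq_mul, he] at h5
      have h6 := S.eVT_coord hζ ht he (S.eWT_le y.2) μ h4
      rw [(pow_inj hζ h0 (Nat.mod_lt _ h0)).1 (mul_right_cancel₀ h4 h5)] at h6
      exact hc h6
    rw [← mulVec_inv' (R := rho k) g (y : D1 → k), h4, mulVec_zero]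
    rfl
  have h3 := cf_lt S.ι p S.cardK _ d hd
  rw [h2, finrank_bot, eq_comm, Finset.sum_eq_zero_iff] at h1
  have h4 := h1 d (Finset.mem_range.2 h3)
  rw [mf_eq hζ h0 (θ := wx N d m) (by omega) (Nat.mod_lt _ h0), mul_eq_zero, Multiset.count_eq_zero, Finset.card_eq_zero] at h4
  exact h4.elim (fun h => h hd) fun h => Finset.filter_eq_empty_iff.1 h hm rfl

end

variable {b : ℕ} {F : Type u} {K : Type v} {k : Type u} [Field F] [Fintype F] [Field K] [Fintype K] [Field k]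
  (S : Sit 3 3 b F K k) [DecidableEq k] [DecidableEq K] [Fact (Nat.Prime 3)] [CharP k 3] [CharP K 3] [IsAlgClosed k]

/-- **isotropic submodules `V_13`** -/
theorem e27_iso (hs : S.SSC) {X : Submodule k (D1 → k)} (hX : S.Stb (rho k) X) {hX' : ∀ x, ∀ y ∈ X, S.R x y ∈ X}
    (h13 : IsV S.ι 3 (subRep S.R X hX') 13) (hiso : X ≤ orth (sf k) X) (h26 : 26 ∉ cf (Sy.{u, u, v} S.ι 3) S.RL) : False := by
  have h2 := S.nt_two (by decide)
  obtain ⟨v, hv⟩ := h13.bas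
  have hB : 13 ∈ Bf k 13 := Finset.mem_filter.2 ⟨by decide, by rw [Nat.choose_self, Nat.cast_one]; exact one_ne_zero⟩
  have he : ∀ x (y z : X), S.RL x (dd (y : D1 → k) z) = dd (subRep S.R X hX' x y : D1 → k) (subRep S.R X hX' x z) :=
    fun x y z => Mu.dd_L h2 _ _ _
  have hm : ∀ (c : k) (y : X), dd ((c • y : X) : D1 → k) (c • y : X) = (c * c) • dd (y : D1 → k) y := fun c y => by
    show ddL k (c • (y : D1 → k)) (c • (y : D1 → k)) = (c * c) • ddL k y y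
    rw [map_smul, map_smul, LinearMap.smul_apply, smul_smul]
  have h3 : dd (v 13 : D1 → k) (v 13) = 0 := by
    refine bfix_zero S.ι 3 S.cardK (fun y hy => S.nofix (by decide) hs y fun x => by rw [← L_mulVec]; exact hy x) h26
      (by decide) (fun t => ?_) fun c => ?_
    · rw [he, hv.u 13 hB, Nat.sub_self, zero_add, Finset.sum_range_one, Nat.choose_self, Nat.cast_one, pow_zero, mul_one,
        one_smul]
    · have h4 := powQ S.ι c.ne_zero
      rw [S.cardK] at h4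
      rw [he, hv.h 13 hB, hm, Nat.sub_self, pow_zero, mul_one, ← pow_add]
      exact (congrArg (· • _) h4).trans (one_smul _ _)
  have h4 : ∀ x y z : X, DD k x y *ᵥ (z : D1 → k) = 0 := by
    refine tri_zero S.ι S.cardK hv (fun x y : X => toLin' (DD k x y) ∘ₗ X.subtype)
      (fun x y z => congrArg (· *ᵥ (z : D1 → k)) (DD_comm _ _)) (fun x y z => ?_) fun t z => ?_
    · have h5 := Mu.ident (x : D1 → k) y z
      rw [hiso z.2 _ y.2, hiso z.2 _ x.2, hiso y.2 _ x.2, mul_zero, zero_smul, zero_smul, zero_smul, add_zero, sub_zero] at h5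
      exact sub_eq_zero.1 h5
    · have h5 := congrArg (fun y => S.RL (u t) (S.RL w y)) h3
      simp only [map_zero] at h5
      rw [he, hv.w 13 hB, hm, ← pow_add, Even.neg_one_pow (by decide), one_smul, he] at h5
      show DD k _ _ *ᵥ (z : D1 → k) = 0
      rw [← del_dd, h5, map_zero, zero_mulVec]
  have h5 := isV_ne S.ι 3 h13
  refine h5 (S.nt_white (by decide) hX fun x hx y hy => (Mu.dd_eq_zero_iff x y).1 ((Submodule.mem_bot k).1 ?_))
  rw [← S.ann (by decide) hs hX h5]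
  exact fun z hz => by rw [del_dd]; exact h4 ⟨x, hx⟩ ⟨y, hy⟩ ⟨z, hz⟩

/-- **the socle** -/
theorem e27_soc (hs : S.SSC) {c0 : Kˣ} (hζ : IsPrimitiveRoot (S.ι c0) 26) {g : Gh k} {t : Fin chevE7.rank → kˣ}
    (ht : S.ψ (h c0) = g * Phi k t * g⁻¹) {e : D1 → ℕ} (he : ∀ μ, ((ch (wc μ) t : kˣ) : k) = S.ι c0 ^ e μ) {U : ℕ → Prop}
    (h1 : ∀ d, (cf (Sy.{u, u, v} S.ι 3) S.R).count d ≤ 1 ∨ U d ∨
      (d = 13 ∧ (cf (Sy.{u, u, v} S.ι 3) S.R).count d = 2 ∧ 26 ∉ cf (Sy.{u, u, v} S.ι 3) S.RL))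
    (h2 : ∃ d ∈ cf (Sy.{u, u, v} S.ι 3) S.R, U d) : ∃ d, U d ∧ InSoc S.ι 3 S.R d := by
  by_contra hc
  have hc : ∀ d, U d → ¬ InSoc S.ι 3 S.R d := fun d h3 h4 => hc ⟨d, h3, h4⟩
  obtain ⟨d, hd, hU⟩ := h2
  have D := S.e27_dul
  rcases soc_or_iso S.ι 3 D with h3 | ⟨X, hX, c, hcX, hiso, h3⟩
  · exact hc d hU (h3 d hd)
  obtain ⟨rfl, h4, h26⟩ := ((h1 c).resolve_left (by omega)).resolve_left fun h => hc c h ⟨X, hX, hcX⟩
  have hN : ((26 : ℕ) : k) ≠ 0 := fun h => absurd ((CharP.cast_eq_zero_iff k 3 26).1 h) (by decide)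
  have hW := S.eWT_stb (Θ := Θ13) (by decide) hζ.pow_eq_one fun j _ => pow_closed Θ13_mul j
  have hWi : ∀ x, ∀ y ∈ S.eWT c0 26 Θ13, S.R x y ∈ S.eWT c0 26 Θ13 := fun x y hy => S.eWT_inv x hy
  have hXW : X ≤ S.eWT c0 26 Θ13 := S.le_eWT_of_isV (by decide) hζ.pow_eq_one (by decide) hcX fun m hm => by
    rw [Bf_eq k (by decide), Finset.mem_filter, Finset.mem_range] at hm
    exact Θ13_wt m hm.1 hm.2
  have h5 : ∀ c ∈ cf (Sy.{u, u, v} S.ι 3) (subRep S.R _ hWi), c = 13 := fun c hc' => by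
    have h6 := cf_lt S.ι 3 S.cardK _ c hc'
    exact Θ13_eq c h6 fun m h7 h8 => S.e27_cf_eWT hζ hN (by decide) ht he hc' (by
      rw [Bf_eq k h6]
      exact Finset.mem_filter.2 ⟨Finset.mem_range.2 h7, h8⟩)
  have h6 := cf_orth S.ι 3 D hWi
  have h7 := congrArg (Multiset.count 13) h6
  have h8 := Multiset.count_pos.2 (mem_cf_of_le S.ι 3 hcX hWi hXW)
  rw [Multiset.count_add] at h7
  by_cases h9 : (cf (Sy.{u, u, v} S.ι 3) (subRep S.R _ hWi)).count 13 = 1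
  · have k1 : cf (Sy.{u, u, v} S.ι 3) (subRep S.R _ hWi) = {13} := by
      rw [Multiset.eq_replicate_card.2 h5] at h9 ⊢
      rw [Multiset.count_replicate_self] at h9
      rw [h9]
      rfl
    rcases IsV.inf_or_le S.ι 3 (irr_of_cf _ k1) hX with k2 | k2
    · exact isV_ne S.ι 3 hcX (by rwa [inf_eq_right.2 hXW] at k2)
    · exact S.e27_iso hs (le_antisymm k2 hXW ▸ hW) hcX hiso h26
  have k1 : 13 ∉ cf (Sy.{u, u, v} S.ι 3) (subRep S.R _ (D.orth_inv hWi)) := Multiset.count_eq_zero.1 (by omega)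
  have k2 : S.eWT c0 26 Θ13 ⊓ orth (sf k) (S.eWT c0 26 Θ13) = ⊥ := by
    by_contra k2
    obtain ⟨Y, hY, c, k3, k4⟩ := exists_le S.ι 3 (inf_inv hWi (D.orth_inv hWi)) k2
    rw [h5 c (mem_cf_of_le S.ι 3 k4 hWi (k3.trans inf_le_left))] at k4
    exact k1 (mem_cf_of_le S.ι 3 k4 _ (k3.trans inf_le_right))
  have k3 : ∀ c, InSoc S.ι 3 (subRep S.R _ (D.orth_inv hWi)) c → InSoc S.ι 3 S.R c := fun c hc' =>
    hc'.iso S.ι 3 (Submodule.subtype _) (fun _ _ => rfl) (Submodule.injective_subtype _)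
  rcases soc_or_iso S.ι 3 (dul_res D (fun x y h => by rw [sf_swap, h, neg_zero]) hWi k2) with k4 | ⟨Y, hY, c, k4, -, k5⟩
  · rw [← h6, Multiset.mem_add] at hd
    rcases hd with hd | hd
    · exact hc d hU (h5 d hd ▸ ⟨X, hX, hcX⟩)
    · exact hc d hU (k3 d (k4 d hd))
  · have k6 := congrArg (Multiset.count c) h6
    rw [Multiset.count_add] at k6
    rcases (h1 c).resolve_left (by omega) with k7 | ⟨rfl, -⟩
    · exact hc c k7 (k3 c ⟨Y, hY, k4⟩)
    · exact k1 (Multiset.count_pos.1 (by omega))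

/-- **the socle**, for the check -/
theorem e27_socOK (hs : S.SSC) {c0 : Kˣ} (hζ : IsPrimitiveRoot (S.ι c0) 26) {g : Gh k} {t : Fin chevE7.rank → kˣ}
    (ht : S.ψ (h c0) = g * Phi k t * g⁻¹) {e : D1 → ℕ} (he : ∀ μ, ((ch (wc μ) t : kˣ) : k) = S.ι c0 ^ e μ) {U : ℕ → Bool}
    (h1 : socOK (fun d => (cf (Sy.{u, u, v} S.ι 3) S.R).count d) ((cf (Sy.{u, u, v} S.ι 3) S.RL).count 26) U = true) :
    ∃ d, U d = true ∧ InSoc S.ι 3 S.R d := by
  have hlt : ∀ d, 27 ≤ d → (cf (Sy.{u, u, v} S.ι 3) S.R).count d = 0 := fun d hd =>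
    Multiset.count_eq_zero.2 fun h => absurd (cf_lt S.ι 3 S.cardK _ d h) (by omega)
  simp only [socOK, Bool.or_eq_true, Bool.and_eq_true, List.all_eq_true, List.any_eq_true, List.mem_range, Nat.blt_eq,
    Nat.ble_eq, beq_iff_eq, bne_iff_ne, List.contains_iff_mem, sm_eq] at h1
  rcases h1 with (h1 | ⟨h1, d, -, h2, h3⟩) | ⟨d, -, ⟨h1, h2⟩, h3⟩
  · have h2 := (isMult_cf S.ι 3 S.cardK S.R).pressure
    rw [fx_eq_bot fun y hy => S.nofixV (by decide) hs y hy, zero_add] at h2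
    exact absurd h1 (not_lt.2 h2)
  · refine S.e27_soc hs hζ ht he (fun c => ?_) ⟨d, Multiset.count_ne_zero.1 h2, h3⟩
    rcases Nat.lt_or_ge c 27 with h4 | h4
    · rcases h1 c h4 with (h5 | h5) | h5
      · exact Or.inl h5
      · exact Or.inr (Or.inl h5)
      · exact Or.inr (Or.inr ⟨h5.1.1, h5.1.2, Multiset.count_eq_zero.1 h5.2⟩)
    · exact Or.inl (by rw [hlt c h4]; decide)
  · refine ⟨d, h2, soc_of_ext S.ι 3 S.e27_dul h1 fun c hc => ?_⟩
    have h4 : c < 27 := by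
      by_contra h4
      rw [hlt c (by omega)] at hc
      omega
    rcases LP_ok _ ((h3 c h4).resolve_left (by omega)) with h5 | h5
    · exact ext0_of_lf2 S.ι 3 S.cardK h5
    · exact ext0_symm S.ι 3 (ext0_of_lf2 S.ι 3 S.cardK h5)

end Sit

end Cfsg.Agent.E7P
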